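import Mathlib
import Cfsg.Agent.Grp.Frob

/-! Frobenius groups of automorphisms: fixed points of the complement cover quotients. -/

set_option autoImplicit false

namespace CL.FHCov

universe u

variable {A : Type*} [Group A]

/-- restriction of an action to an invariant subgroup -/
@[reducible] def resAct {G : Type*} [Group G] [MulDistribMulAction A G] (N : Subgroup G)
    (hN : ∀ (a : A) (n : G), n ∈ N → a • n ∈ N) : MulDistribMulAction A N where
  smul a x := ⟨a • (x : G), hN a x x.2⟩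
  one_smul x := Subtype.ext (one_smul A (x : G))
  mul_smul a b x := Subtype.ext (mul_smul a b (x : G))
  smul_mul a x y := Subtype.ext (smul_mul' a (x : G) (y : G))
  smul_one a := Subtype.ext (smul_one a)

/-- the action on the abelianization -/
@[reducible] def abAct (G : Type*) [Group G] [MulDistribMulAction A G] :
    MulDistribMulAction A (Abelianization G) where
  smul a v := Abelianization.map (MulDistribMulAction.toMonoidHom G a) v
  one_smul v := by
    obtain ⟨x, rfl⟩ := QuotientGroup.mk_surjective v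
    show Abelianization.of ((1 : A) • x) = Abelianization.of x
    rw [one_smul]
  mul_smul a b v := by
    obtain ⟨x, rfl⟩ := QuotientGroup.mk_surjective v
    show Abelianization.of ((a * b) • x) = Abelianization.of (a • b • x)
    rw [mul_smul]
  smul_mul a x y := map_mul (Abelianization.map (MulDistribMulAction.toMonoidHom G a)) x y
  smul_one a := map_one (Abelianization.map (MulDistribMulAction.toMonoidHom G a))

/-- equivariant coordinates on the free part of the conjugation action -/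
theorem exists_coord (F H : Subgroup A) [hF : F.Normal]
    (hfree : ∀ h ∈ H, ∀ f ∈ F, f ≠ 1 → h * f * h⁻¹ = f → h = 1) :
    ∃ t : A → H, ∀ (h : H), ∀ f ∈ F, f ≠ 1 → t (h * f * (h : A)⁻¹) = h * t f := by
  classical
  let s : Setoid A := ⟨fun x y => ∃ h : H, (h : A) * y * (h : A)⁻¹ = x,
    ⟨fun x => ⟨1, by simp⟩, fun {x y} ⟨h, e⟩ => ⟨h⁻¹, by rw [← e]; simp [mul_assoc]⟩,
      fun {x y z} ⟨h, e⟩ ⟨k, e'⟩ => ⟨h * k, by rw [← e, ← e']; simp [mul_assoc]⟩⟩⟩
  have hr : ∀ x : A, ∃ h : H, (h : A) * (Quotient.mk s x).out * (h : A)⁻¹ = x := fun x =>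
    s.symm (Quotient.mk_out (s := s) x)
  choose t ht using hr
  refine ⟨t, fun h f hf h1 => ?_⟩
  have e : Quotient.mk s (h * f * (h : A)⁻¹) = Quotient.mk s f := Quotient.sound ⟨h, rfl⟩
  have e1 := ht (h * f * (h : A)⁻¹)
  have e2 := ht f
  rw [e] at e1
  set r := (Quotient.mk s f).out
  set a := t (h * f * (h : A)⁻¹)
  set b := t f
  have hk : ((h * b * a⁻¹ : H) : A) = 1 := by
    refine hfree _ (h * b * a⁻¹).2 (h * f * (h : A)⁻¹) (hF.conj_mem f hf h) ?_ ?_
    · intro e3; apply h1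
      have : f = (h : A)⁻¹ * (h * f * (h : A)⁻¹) * h := by group
      rw [this, e3]; simp
    · have e3 : r = (a : A)⁻¹ * (h * f * (h : A)⁻¹) * a := by rw [← e1]; group
      have e4 : (h : A) * f * (h : A)⁻¹ = h * (b * r * (b : A)⁻¹) * (h : A)⁻¹ := by rw [e2]
      conv_rhs => rw [e4, e3]
      simp [mul_assoc]
  have hk' : h * b * a⁻¹ = 1 := Subtype.ext hk
  rw [mul_inv_eq_one] at hk'
  exact hk'.symm

/-- Higman's trick: cocycles of the complement split on an abelian group without `F`-fixed points -/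
theorem split_comm [Finite A] {V : Type*} [CommGroup V] [MulDistribMulAction A V] (F H : Subgroup A)
    [hF : F.Normal] (hfree : ∀ h ∈ H, ∀ f ∈ F, f ≠ 1 → h * f * h⁻¹ = f → h = 1)
    (hV : ∀ v : V, (∀ f ∈ F, f • v = v) → v = 1) (c : H → V)
    (hc : ∀ h k : H, c (h * k) = c h * (h : A) • c k) :
    ∃ w : V, ∀ h : H, (h : A) • w = c h * w := by
  classical
  let _ : Fintype A := Fintype.ofFinite A
  obtain ⟨t, ht⟩ := exists_coord F H hfree
  let S : Finset A := Finset.univ.filter (fun x => x ∈ F)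
  have hS : ∀ x, x ∈ S ↔ x ∈ F := fun x => by simp [S]
  have hsum : ∀ u : V, ∏ x ∈ S, x • u = 1 := by
    intro u
    refine hV _ fun f hf => ?_
    rw [Finset.smul_prod']
    refine Finset.prod_bij' (fun x _ => f * x) (fun x _ => f⁻¹ * x) ?_ ?_ ?_ ?_ ?_
    · intro x hx; exact (hS _).2 (F.mul_mem hf ((hS _).1 hx))
    · intro x hx; exact (hS _).2 (F.mul_mem (F.inv_mem hf) ((hS _).1 hx))
    · intro x _; simp
    · intro x _; simp
    · intro x _; rw [mul_smul]
  have hsum' : ∀ u : V, ∏ x ∈ S.erase 1, x • u = u⁻¹ := by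
    intro u
    have := Finset.mul_prod_erase S (fun x => x • u) ((hS 1).2 F.one_mem)
    rw [hsum, one_smul] at this
    exact eq_inv_of_mul_eq_one_right this
  refine ⟨∏ x ∈ S.erase 1, x • c (t x), fun h => ?_⟩
  have e1 : c h = ∏ x ∈ S.erase 1, x • (c h)⁻¹ := by rw [hsum', inv_inv]
  rw [Finset.smul_prod', e1, ← Finset.prod_mul_distrib]
  have hne : ∀ (a x : A), x ≠ 1 → a * x * a⁻¹ ≠ 1 := by
    intro a x h1 e3; apply h1
    have : x = a⁻¹ * (a * x * a⁻¹) * a := by group
    rw [this, e3]; simp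
  refine Finset.prod_bij' (fun x _ => h * x * (h : A)⁻¹) (fun x _ => (h : A)⁻¹ * x * (h : A)⁻¹⁻¹) ?_ ?_ ?_ ?_ ?_
  · intro x hx
    rw [Finset.mem_erase] at hx ⊢
    exact ⟨hne _ _ hx.1, (hS _).2 (hF.conj_mem x ((hS _).1 hx.2) h)⟩
  · intro x hx
    rw [Finset.mem_erase] at hx ⊢
    exact ⟨hne _ _ hx.1, (hS _).2 (hF.conj_mem x ((hS _).1 hx.2) _)⟩
  · intro x _; group
  · intro x _; group
  · intro x hx
    rw [Finset.mem_erase] at hx
    rw [ht h x ((hS _).1 hx.2) hx.1, hc, ← smul_mul', inv_mul_cancel_left, ← mul_smul, ← mul_smul]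
    congr 1; group

theorem card_lt {G : Type*} [Group G] [Finite G] {M N : Subgroup G} (h : M < N) : Nat.card M < Nat.card N :=
  lt_of_le_of_ne (Subgroup.card_le_of_le h.le) fun e => h.ne (Subgroup.eq_of_le_of_card_ge h.le e.ge)

/-- no fixed points on the abelianization -/
def QS (F : Subgroup A) : Prop :=
  ∀ (G : Type u) [Group G] [Finite G] [MulDistribMulAction A G], (∀ g : G, (∀ f ∈ F, f • g = g) → g = 1) →
    ∀ g : G, (∀ f ∈ F, g⁻¹ * f • g ∈ commutator G) → g ∈ commutator G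

/-- invariant Sylow subgroups -/
def SS (F : Subgroup A) : Prop :=
  ∀ (G : Type u) [Group G] [Finite G] [MulDistribMulAction A G], (∀ g : G, (∀ f ∈ F, f • g = g) → g = 1) →
    ∀ (p : ℕ) [Fact p.Prime], ∃ P : Sylow p G, ∀ (a : A) (x : G), x ∈ (P : Subgroup G) → a • x ∈ (P : Subgroup G)

theorem ab_step [Finite A] (F H : Subgroup A) [F.Normal]
    (hfree : ∀ h ∈ H, ∀ f ∈ F, f ≠ 1 → h * f * h⁻¹ = f → h = 1) (hQ : QS.{u} F)
    {G : Type u} [Group G] [Finite G] [MulDistribMulAction A G] (N : Subgroup G)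
    (hNA : ∀ (a : A) (n : G), n ∈ N → a • n ∈ N) (hC : ∀ n ∈ N, (∀ f ∈ F, f • n = n) → n = 1)
    (g : G) (hg : ∀ h ∈ H, g⁻¹ * h • g ∈ N) :
    ∃ n ∈ N, ∀ h ∈ H, (g * n)⁻¹ * h • (g * n) ∈ ⁅N, N⁆ := by
  let _ := resAct N hNA
  let _ := abAct (A := A) N
  have hs : ∀ (a : A) (x : N), a • Abelianization.of x = Abelianization.of (a • x) := fun _ _ => rfl
  have hco : ∀ (a : A) (x : N), ((a • x : N) : G) = a • (x : G) := fun _ _ => rfl
  have hker : ∀ x : N, Abelianization.of x = 1 ↔ x ∈ commutator N := fun x => by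
    rw [← Abelianization.ker_of, MonoidHom.mem_ker]
  have hV : ∀ v : Abelianization N, (∀ f ∈ F, f • v = v) → v = 1 := by
    intro v hv
    obtain ⟨x, rfl⟩ : ∃ x : N, Abelianization.of x = v := QuotientGroup.mk_surjective v
    rw [hker]
    refine hQ N (fun y hy => Subtype.ext (hC y y.2 fun f hf => ?_)) x fun f hf => ?_
    · rw [← hco, hy f hf]
    · rw [← hker, map_mul, map_inv, ← hs, hv f hf, inv_mul_cancel]
  let c : H → N := fun h => ⟨g⁻¹ * (h : A) • g, hg h h.2⟩
  have hc : ∀ h k : H, c (h * k) = c h * (h : A) • c k := by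
    intro h k
    apply Subtype.ext
    show g⁻¹ * ((h : A) * k) • g = (g⁻¹ * (h : A) • g) * (h : A) • (g⁻¹ * (k : A) • g)
    rw [smul_mul', smul_inv', mul_smul]; group
  obtain ⟨w, hw⟩ := split_comm F H hfree hV (fun h => Abelianization.of (c h))
    (fun h k => by rw [hc, map_mul, hs])
  obtain ⟨x, rfl⟩ : ∃ x : N, Abelianization.of x = w := QuotientGroup.mk_surjective w
  refine ⟨(x⁻¹ : N), (x⁻¹).2, fun h hh => ?_⟩
  have e : x * c ⟨h, hh⟩ * (h • x)⁻¹ ∈ commutator N := by
    rw [← hker, map_mul, map_mul, map_inv, ← hs]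
    have := hw ⟨h, hh⟩
    simp only at this
    rw [this, mul_comm (Abelianization.of x), mul_inv_cancel]
  have e2 := Subgroup.mem_map_of_mem N.subtype e
  rw [Subgroup.map_subtype_commutator] at e2
  convert e2 using 1
  show (g * (x : G)⁻¹)⁻¹ * h • (g * (x : G)⁻¹) = (x : G) * (g⁻¹ * h • g) * (h • (x : G))⁻¹
  rw [smul_mul', smul_inv']; group

theorem cover [Finite A] (F H : Subgroup A) [F.Normal]
    (hfree : ∀ h ∈ H, ∀ f ∈ F, f ≠ 1 → h * f * h⁻¹ = f → h = 1) (hQ : QS.{u} F) (hS : SS.{u} F) (m : ℕ) :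
    ∀ {G : Type u} [Group G] [Finite G] [MulDistribMulAction A G] (N : Subgroup G) [N.Normal],
      Nat.card N = m → (∀ (a : A) (n : G), n ∈ N → a • n ∈ N) → (∀ n ∈ N, (∀ f ∈ F, f • n = n) → n = 1) →
      ∀ g : G, (∀ h ∈ H, g⁻¹ * h • g ∈ N) → ∃ c : G, (∀ h ∈ H, h • c = c) ∧ c⁻¹ * g ∈ N := by
  induction m using Nat.strong_induction_on with
  | _ m ih =>
  intro G _ _ _ N hNn hm hNA hC g hg
  by_cases hb : N = ⊥
  · subst hb
    refine ⟨g, fun h hh => ?_, by simp⟩
    have := Subgroup.mem_bot.1 (hg h hh)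
    exact (inv_mul_eq_one.1 this).symm
  by_cases hlt : ⁅N, N⁆ = N
  · -- Frattini step
    have hnn : ¬ Group.IsNilpotent N := by
      intro hn
      have : Nontrivial N := (Subgroup.nontrivial_iff_ne_bot N).2 hb
      have h1 := Group.IsSolvable.commutator_lt_top_of_nontrivial N
      have h2 : (commutator N).map N.subtype = (⊤ : Subgroup N).map N.subtype := by
        rw [Subgroup.map_subtype_commutator, hlt, ← MonoidHom.range_eq_map, Subgroup.range_subtype]
      exact h1.ne (Subgroup.map_injective N.subtype_injective h2)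
    have h3 : ¬ ∀ (p : ℕ) (_ : Fact p.Prime) (P : Sylow p N), (P : Subgroup N).Normal := fun h =>
      hnn (((Group.isNilpotent_of_finite_tfae (G := N)).out 0 3).2 h)
    push Not at h3
    obtain ⟨p, hp, P0, hP0⟩ := h3
    let _ := resAct N hNA
    have hco : ∀ (a : A) (x : N), ((a • x : N) : G) = a • (x : G) := fun _ _ => rfl
    obtain ⟨P, hP⟩ := hS N (fun y hy => Subtype.ext (hC y y.2 fun f hf => by rw [← hco, hy f hf])) p
    have hPn : ¬ (P : Subgroup N).Normal := by
      intro hn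
      have := Sylow.unique_of_normal P hn
      exact hP0 (Subsingleton.elim P P0 ▸ hn)
    set Q : Subgroup G := (P : Subgroup N).map N.subtype with hQdef
    have hQA : ∀ (a : A) (x : G), x ∈ Q → a • x ∈ Q := by
      rintro a _ ⟨x, hx, rfl⟩
      exact ⟨a • x, hP a x hx, rfl⟩
    set K : Subgroup G := Subgroup.normalizer (Q : Set G) with hK
    have hKA : ∀ (a : A) (x : G), x ∈ K → a • x ∈ K := by
      intro a x hx
      refine Subgroup.mem_normalizer_fintype fun y hy => ?_
      have := hQA a _ ((Subgroup.mem_normalizer_iff.1 hx _).1 (hQA a⁻¹ y hy))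
      rwa [smul_mul', smul_mul', smul_inv_smul, smul_inv'] at this
    have hsup : K ⊔ N = ⊤ := Sylow.normalizer_sup_eq_top P
    have hgm : g ∈ K ⊔ N := hsup ▸ Subgroup.mem_top g
    obtain ⟨k, hk, n, hn, rfl⟩ := Subgroup.mem_sup_of_normal_right.1 hgm
    let _ := resAct K hKA
    have hcoK : ∀ (a : A) (x : K), ((a • x : K) : G) = a • (x : G) := fun _ _ => rfl
    have hcard : Nat.card (N.subgroupOf K) < m := by
      rw [← hm, ← Subgroup.card_map_of_injective (K := N.subgroupOf K) K.subtype_injective,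
        Subgroup.subgroupOf_map_subtype]
      refine card_lt (lt_of_le_of_ne inf_le_left fun e => hPn ?_)
      have hle : N ≤ K := e ▸ inf_le_right
      refine ⟨fun y hy z => ?_⟩
      have := (Subgroup.mem_normalizer_iff.1 (hle z.2) y).1 ⟨y, hy, rfl⟩
      obtain ⟨y', hy', e'⟩ := this
      have : y' = z * y * z⁻¹ := Subtype.ext e'
      exact this ▸ hy'
    obtain ⟨c, hc1, hc2⟩ := ih _ hcard (N.subgroupOf K) rfl
      (fun a x hx => hNA a x hx)
      (fun x hx h => Subtype.ext (hC x hx fun f hf => by rw [← hcoK, h f hf])) ⟨k, hk⟩ (fun h hh => by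
        show k⁻¹ * h • k ∈ N
        have e : k⁻¹ * h • k = n * ((k * n)⁻¹ * h • (k * n)) * (h • n)⁻¹ := by
          rw [smul_mul']; group
        rw [e]
        exact N.mul_mem (N.mul_mem hn (hg h hh)) (N.inv_mem (hNA h n hn)))
    refine ⟨c, fun h hh => by rw [← hcoK, hc1 h hh], ?_⟩
    rw [← mul_assoc]
    exact N.mul_mem hc2 hn
  · obtain ⟨n, hn, h1⟩ := ab_step F H hfree hQ N hNA hC g hg
    have hle : ⁅N, N⁆ ≤ N := Subgroup.commutator_le_left N N
    obtain ⟨c, hc1, hc2⟩ := ih _ (hm ▸ card_lt (lt_of_le_of_ne hle hlt)) ⁅N, N⁆ rfl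
      (fun a x hx => by
        have : ⁅N, N⁆.map (MulDistribMulAction.toMonoidHom G a) ≤ ⁅N, N⁆ := by
          rw [Subgroup.map_commutator]
          have : N.map (MulDistribMulAction.toMonoidHom G a) ≤ N := by
            rintro _ ⟨y, hy, rfl⟩; exact hNA a y hy
          exact Subgroup.commutator_mono this this
        exact this ⟨x, hx, rfl⟩)
      (fun x hx => hC x (hle hx)) (g * n) h1
    refine ⟨c, hc1, ?_⟩
    have e : c⁻¹ * g = (c⁻¹ * (g * n)) * n⁻¹ := by group
    rw [e]
    exact N.mul_mem (hle hc2) (N.inv_mem hn)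

end CL.FHCov
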