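import Cfsg.Agent.FH.Cov
import Cfsg.Agent.FH.Act

/-! Frobenius groups of automorphisms: the covering theorem without side conditions. -/

set_option autoImplicit false

namespace CL.FHCov

open Cfsg

universe u

variable {A : Type*} [Group A] [Finite A]

theorem qs (F : Subgroup A) (hF : Group.IsNilpotent F) : QS.{u} F := by
  intro G _ _ _ hC g hg
  refine CL.FH.sub_mem_of_fixed hF hC (commutator G) (fun f _ n hn => ?_) g hg
  have : (commutator G).map (MulDistribMulAction.toMonoidHom G f) ≤ commutator G := by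
    rw [commutator_def, Subgroup.map_commutator]
    exact Subgroup.commutator_mono le_top le_top
  exact this ⟨n, hn, rfl⟩

theorem ss (F : Subgroup A) [F.Normal] (hF : Group.IsNilpotent F) : SS.{u} F :=
  fun _ _ _ _ hC p _ => (CL.FH.sub_existsUnique_sylow hF hC p).exists

theorem free_of_frob {F H : Subgroup A} (hH : IsFrobeniusComplement H) (hker : frobeniusKernel H = (F : Set A)) :
    ∀ h ∈ H, ∀ f ∈ F, f ≠ 1 → h * f * h⁻¹ = f → h = 1 := by
  intro h hh f hf h1 e
  obtain ⟨K, h2, -, -, -, h4, -⟩ := CL.Grp.exists_frobenius_kernel hH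
  have hK : K = F := SetLike.coe_injective (h2.trans hker)
  by_contra hne
  have : f ∈ K ⊓ Subgroup.centralizer {h} :=
    ⟨hK ▸ hf, Subgroup.mem_centralizer_singleton_iff.2 (mul_inv_eq_iff_eq_mul.1 e).symm⟩
  rw [h4 h hh hne] at this
  exact h1 this

/-- the fixed points of the complement on `G / N` are covered (no faithfulness needed) -/
theorem cover' {F H : Subgroup A} [F.Normal] (hH : IsFrobeniusComplement H)
    (hker : frobeniusKernel H = (F : Set A)) {G : Type u} [Group G] [Finite G] [MulDistribMulAction A G]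
    (N : Subgroup G) [N.Normal] (hNA : ∀ (a : A) (n : G), n ∈ N → a • n ∈ N)
    (hC : ∀ n ∈ N, (∀ f ∈ F, f • n = n) → n = 1) (g : G) (hg : ∀ h ∈ H, g⁻¹ * h • g ∈ N) :
    ∃ c : G, (∀ h ∈ H, h • c = c) ∧ c⁻¹ * g ∈ N :=
  cover F H (free_of_frob hH hker) (qs F (CL.FH.frob_nil hH hker)) (ss F (CL.FH.frob_nil hH hker)) _ N rfl
    hNA hC g hg

end CL.FHCov
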