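/-
Frobenius groups `FH` of operators with `C_G(F) = 1`: covering of fixed points of `H`, and `G = ⟨C_G(H)^F⟩`.
-/
import Cfsg.Agent.FH.Act
import Cfsg.Agent.FH.Cov
import Cfsg.Agent.Grp.PGroupFrattini

namespace CL.FH

open Cfsg Subgroup CL.Grp CL.Even

variable {A : Type*} [Group A] [Finite A]

/-- covering of `H`-fixed cosets, `F` normal nilpotent -/
theorem cover {F H : Subgroup A} [F.Normal] (hF : Group.IsNilpotent F)
    (hfree : ∀ h ∈ H, h ≠ 1 → ∀ f ∈ F, f * h = h * f → f = 1)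
    {G : Type*} [Group G] [Finite G] [MulDistribMulAction A G] (N : Subgroup G) [N.Normal]
    (hNA : ∀ (a : A) (n : G), n ∈ N → a • n ∈ N) (hC : ∀ n ∈ N, (∀ f ∈ F, f • n = n) → n = 1) (g : G)
    (hg : ∀ h ∈ H, g⁻¹ * h • g ∈ N) : ∃ c : G, (∀ h ∈ H, h • c = c) ∧ c⁻¹ * g ∈ N :=
  FHCov.cover F H (fun h hh f hf h1 e => by
      by_contra h2
      exact h1 (hfree h hh h2 f hf (mul_inv_eq_iff_eq_mul.mp e).symm))
    (fun G _ _ _ hC g hg => sub_mem_of_fixed hF hC _ (fun f _ => smul_mem_of_characteristic _ f) g hg)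
    (fun G _ _ _ hC p _ => (sub_existsUnique_sylow hF hC p).exists) _ N rfl hNA hC g hg

theorem prod_smul_eq_one {V : Type*} [CommGroup V] [MulDistribMulAction A V] {E : Subgroup A} [Fintype E]
    (hE : ∀ v : V, (∀ e ∈ E, e • v = v) → v = 1) (v : V) : ∏ e : E, (e : A) • v = 1 := by
  refine hE _ fun e he => ?_
  rw [Finset.smul_prod', ← Equiv.prod_comp (Equiv.mulLeft (⟨e, he⟩ : E)) fun x : E => (x : A) • v]
  simp [mul_smul]

/-- an abelian group without fixed points of `E` and of `H` has exponent dividing `|E|` -/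
theorem pow_card_eq_one_of_fpf {V : Type*} [CommGroup V] [MulDistribMulAction A V] {E H : Subgroup A}
    [hn : E.Normal] (hfree : ∀ h ∈ H, h ≠ 1 → ∀ f ∈ E, f * h = h * f → f = 1)
    (hE : ∀ v : V, (∀ e ∈ E, e • v = v) → v = 1) (hH : ∀ v : V, (∀ h ∈ H, h • v = v) → v = 1) (v : V) :
    v ^ Nat.card E = 1 := by
  classical
  haveI := Fintype.ofFinite E
  haveI := Fintype.ofFinite H
  have h1 : ∏ h : H, ∏ e : E, ((e : A) * h * (e : A)⁻¹) • v = 1 := by
    rw [Finset.prod_comm]
    refine Finset.prod_eq_one fun e _ => ?_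
    simp only [mul_smul]
    rw [← Finset.smul_prod', prod_smul_eq_one hH, smul_one]
  rw [Finset.prod_eq_single 1 (fun h _ h0 => ?_) (by simp)] at h1
  · simpa [Nat.card_eq_fintype_card] using h1
  · let φ : E → E := fun e => ⟨e * (h * (e : A)⁻¹ * (h : A)⁻¹), E.mul_mem e.2 (hn.conj_mem _ (E.inv_mem e.2) _)⟩
    have hφ : Function.Injective φ := fun x y e => by
      have e1 : (x : A) * (h * (x : A)⁻¹ * (h : A)⁻¹) = y * (h * (y : A)⁻¹ * (h : A)⁻¹) := congrArg Subtype.val e
      have := hfree h h.2 (fun e => h0 (Subtype.ext e)) ((y : A)⁻¹ * x) (E.mul_mem (E.inv_mem y.2) x.2) (by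
        calc (y : A)⁻¹ * x * h = (y : A)⁻¹ * (x * (h * (x : A)⁻¹ * (h : A)⁻¹)) * h * x := by group
          _ = _ := by rw [e1]; group)
      exact Subtype.ext (inv_mul_eq_one.mp this).symm
    rw [← prod_smul_eq_one hE ((h : A) • v),
      ← (Finite.injective_iff_bijective.mp hφ).prod_comp fun e : E => (e : A) • (h : A) • v]
    refine Finset.prod_congr rfl fun e _ => ?_
    rw [← mul_smul]
    congr 1
    simp [φ, mul_assoc]

/-- on a `p`-group already the `p'`-part of `F` has no fixed points -/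
theorem fpf_pPrime {F : Subgroup A} (hF : Group.IsNilpotent F) {G : Type*} [Group G] [Finite G]
    [MulDistribMulAction A G] {p : ℕ} [Fact p.Prime] (hG : IsPGroup p G)
    (hC : ∀ g : G, (∀ f ∈ F, f • g = g) → g = 1) (g : G) (hg : ∀ e ∈ pPrimeCoreOf p F, e • g = g) : g = 1 := by
  by_contra h1
  let W := FixedPoints.subgroup (pPrimeCoreOf p F) G
  have hW : ∀ x : G, x ∈ W ↔ ∀ e ∈ pPrimeCoreOf p F, e • x = x := fun x =>
    ⟨fun h e he => h ⟨e, he⟩, fun h e => h e e.2⟩
  letI := subAction (A := pCoreOf p F) W fun a x hx => (hW _).mpr fun e he => by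
    have := (hW x).mp hx _ (conj_mem' (le_normalizer_pPrimeCoreOf p F (core_le F a.2)) he)
    rw [mul_smul, mul_smul, inv_smul_eq_iff] at this
    exact this
  haveI : Nontrivial W := ⟨⟨⟨g, (hW g).mpr hg⟩, 1, fun e => h1 (congrArg Subtype.val e)⟩⟩
  obtain ⟨n, hn, e⟩ := (hG.to_subgroup W).nontrivial_iff_card.mp inferInstance
  obtain ⟨b, hb, hb1⟩ := (core_isP (p := p) F).exists_fixed_point_of_prime_dvd_card_of_fixed_point W
    (e ▸ dvd_pow_self p hn.ne') (a := 1) fun a => smul_one a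
  refine hb1 (Subtype.ext (hC b fun f hf => ?_).symm)
  have h := fittingSubgroup_le_pCore_sup_pPrimeCore (G := F) p
  rw [fittingSubgroup_eq_top_iff.mpr hF] at h
  have := Subgroup.map_mono (f := F.subtype) h
  rw [Subgroup.map_sup, ← MonoidHom.range_eq_map, range_subtype] at this
  exact (sup_le (fun x hx => congrArg Subtype.val (hb ⟨x, hx⟩)) (fun x hx => (hW _).mp b.2 x hx) :
    _ ≤ MulAction.stabilizer A (b : G)) (this hf)

/-- the subgroup generated by the `F`-translates of `C_G(H)` -/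
def gen (F H : Subgroup A) (G : Type*) [Group G] [MulDistribMulAction A G] : Subgroup G :=
  closure {x : G | ∃ f ∈ F, ∃ c : G, (∀ h ∈ H, h • c = c) ∧ x = f • c}

variable {F H : Subgroup A} [hn : F.Normal] {G : Type*} [Group G] [Finite G] [MulDistribMulAction A G]

omit [Finite A] [Finite G] in
theorem smul_mem_gen (hFH : ∀ a : A, ∃ f ∈ F, ∃ h ∈ H, f * h = a) (a : A) (x : G) (hx : x ∈ gen F H G) :
    a • x ∈ gen F H G := by
  refine (closure_le (K := (gen F H G).comap (MulDistribMulAction.toMonoidHom G a))).mpr ?_ hx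
  rintro _ ⟨f, hf, c, hc, rfl⟩
  obtain ⟨f', hf', h, hh, e⟩ := hFH (a * f)
  refine subset_closure ⟨f', hf', c, hc, ?_⟩
  change a • f • c = _
  rw [← mul_smul, ← e, mul_smul, hc h hh]

theorem gen_pGroup (hF : Group.IsNilpotent F) (hFH : ∀ a : A, ∃ f ∈ F, ∃ h ∈ H, f * h = a)
    (hfree : ∀ h ∈ H, h ≠ 1 → ∀ f ∈ F, f * h = h * f → f = 1) {p : ℕ} [hp : Fact p.Prime] (hG : IsPGroup p G)
    (hC : ∀ g : G, (∀ f ∈ F, f • g = g) → g = 1) : gen F H G = ⊤ := by
  refine frattini_nongenerating ?_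
  set M := gen F H G ⊔ frattini G with hM
  have hcm : commutator G ≤ M := (commutator_le_frattini hG).trans le_sup_right
  haveI : M.Normal := Subgroup.Normal.of_commutator_le G hcm
  have hMA : ∀ (a : A), ∀ x ∈ M, a • x ∈ M := fun a =>
    (sup_le (fun x hx => le_sup_left (a := gen F H G) (smul_mem_gen hFH a x hx))
      (fun x hx => le_sup_right (a := gen F H G) (smul_mem_of_characteristic _ a x hx)) :
      M ≤ M.comap (MulDistribMulAction.toMonoidHom G a))
  letI := quotAction M hMA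
  letI : CommGroup (G ⧸ M) := { (inferInstance : Group (G ⧸ M)) with
    mul_comm := (Subgroup.Normal.quotient_commutative_iff_commutator_le.mpr hcm).is_comm.comm }
  haveI : (pPrimeCoreOf p F).Normal := normalizer_eq_top_iff.mp (top_le_iff.mp
    (le_normalizer_of_normal.trans (normalizer_le_normalizer_pPrimeCoreOf p F)))
  have hE := fpf_pPrime hF hG hC
  rw [eq_top_iff]
  intro g _
  have := pow_card_eq_one_of_fpf (V := G ⧸ M) (E := pPrimeCoreOf p F) (H := H)
    (fun h hh h1 f hf => hfree h hh h1 f (pPrimeCoreOf_le p F hf))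
    (fun v hv => by
      obtain ⟨x, rfl⟩ := QuotientGroup.mk_surjective v
      refine (QuotientGroup.eq_one_iff x).mpr (sub_mem_of_fixed
        (nilpotent_of_mulEquiv (subgroupOfEquivOfLe (pPrimeCoreOf_le p F))) hE M (fun f _ => hMA f) x fun f hf => ?_)
      exact QuotientGroup.eq.mp (hv f hf).symm)
    (fun v hv => by
      obtain ⟨x, rfl⟩ := QuotientGroup.mk_surjective v
      obtain ⟨c, hc, h⟩ := cover hF hfree M hMA (fun n _ => hC n) x fun f hf => QuotientGroup.eq.mp (hv f hf).symm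
      have : c ∈ M := le_sup_left (a := gen F H G) (subset_closure ⟨1, F.one_mem, c, hc, (one_smul _ _).symm⟩)
      exact (QuotientGroup.eq_one_iff x).mpr ((M.mul_mem_cancel_left (M.inv_mem this)).mp h)) g
  rw [← QuotientGroup.mk_pow, QuotientGroup.eq_one_iff] at this
  exact mem_of_pow_mem_of_coprime (orderOf_coprime_of_mem_isPGroup (hG.to_subgroup ⊤) (mem_top g)
    (pPrimeCoreOf_coprime p F).symm) this

theorem gen_eq_top (hF : Group.IsNilpotent F) (hFH : ∀ a : A, ∃ f ∈ F, ∃ h ∈ H, f * h = a)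
    (hfree : ∀ h ∈ H, h ≠ 1 → ∀ f ∈ F, f * h = h * f → f = 1)
    (hC : ∀ g : G, (∀ f ∈ F, f • g = g) → g = 1) : gen F H G = ⊤ := by
  rw [← index_eq_one, Nat.eq_one_iff_not_exists_prime_dvd]
  intro p hp h
  haveI := Fact.mk hp
  obtain ⟨P, hP, -⟩ := sub_existsUnique_sylow hF hC p
  letI := subAction (P : Subgroup G) hP
  have h1 := gen_pGroup (G := P) hF hFH hfree P.isPGroup' fun g hg =>
    Subtype.ext (hC g fun f hf => congrArg Subtype.val (hg f hf))
  have h2 : gen F H P ≤ (gen F H G).comap (P : Subgroup G).subtype := by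
    refine (closure_le _).mpr ?_
    rintro _ ⟨f, hf, c, hc, rfl⟩
    exact subset_closure ⟨f, hf, c, fun h hh => congrArg Subtype.val (hc h hh), rfl⟩
  exact P.not_dvd_index (h.trans (index_dvd_of_le fun x hx => h2 (x := ⟨x, hx⟩) (h1 ▸ mem_top _)))

omit hn in
theorem frob_fac (hH : IsFrobeniusComplement H) (hker : frobeniusKernel H = (F : Set A)) (a : A) :
    ∃ f ∈ F, ∃ h ∈ H, f * h = a := by
  obtain ⟨K, h1, -, h3, -⟩ := exists_frobenius_kernel hH
  have : K = F := SetLike.coe_injective (h1.trans hker)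
  obtain ⟨x, e⟩ := (this ▸ h3).2 a
  exact ⟨_, x.1.2, _, x.2.2, e⟩

omit hn [Finite A] in
theorem frob_free (hH : IsFrobeniusComplement H) (hker : frobeniusKernel H = (F : Set A)) :
    ∀ h ∈ H, h ≠ 1 → ∀ f ∈ F, f * h = h * f → f = 1 :=
  fun _ hh h1 _ hf => (isMalnormal_of_frob hH).eq_one_of_commute hh h1 (hker ▸ hf)

end CL.FH
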